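import Cfsg.Agent.H781.TC6.Row
import Cfsg.Agent.H588.TW.Defs
import Cfsg.Agent.LieClassical.OrthCenter

/-!
# S2452, `Ω_(2n+1)(q)`, `q` odd, `n` even: orders, cube clause, wrapper (helper370)

* `Dat r Q x₀ y₀` : the data for `T52`.
* `t52_of_dat` : `Dat r Q x₀ y₀ → T52 (POmega F Q)`, `r` an odd prime, centre of `Omega` trivial.
* `dat_of` : the data in a Siegel frame, `x₀ = lev (diag (1, B)) 1`, `y₀ = lev (diag (-1, -D)) 1`.
* `t52_odd_of` : the row from the covering statement `TwoOf`.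
-/

set_option autoImplicit false
set_option linter.unusedSectionVars false

namespace Cfsg.Agent.H370.TW

open Module QuadraticMap Matrix Polynomial Cfsg.Agent.LieClassical Cfsg.Agent.LieClassical.OrthCore
  Cfsg.Agent.LieClassical.OrthTrans Cfsg.Agent.LieClassical.OrthFinite Cfsg.Agent.LieClassical.OrthForms
  Cfsg.Agent.H140.OreO Cfsg.Agent.H126.PwO Cfsg.Agent.H962.PP Cfsg.Agent.H141.SpinFacts Cfsg.Agent.H781.TC6
open Cfsg.Agent.H434.Corn (MaxTS)
open Cfsg.Agent.H140.TC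
open Cfsg.Agent.H588.TW (T52)

/-- the data for `T52` -/
structure Dat {F V : Type*} [Field F] [AddCommGroup V] [Module F V] (r : ℕ) (Q : QuadraticForm F V)
    (x₀ y₀ : V ≃ₗ[F] V) : Prop where
  hx : x₀ ∈ Om Q
  hy : y₀ ∈ Om Q
  xr : x₀ ^ r = 1
  yr : y₀ ^ (2 * r) = 1
  x1 : x₀ ≠ 1
  y2 : y₀ ^ 2 ≠ 1
  yn : y₀ ^ r ≠ 1
  yx : ∃ u ∈ Om Q, ∃ v ∈ Om Q, y₀ = (u * x₀ * u⁻¹) * (v * x₀ * v⁻¹)
  one : ∃ u ∈ Om Q, ∃ v ∈ Om Q, ∃ w ∈ Om Q, 1 = (u * x₀ * u⁻¹) * (v * x₀ * v⁻¹) * (w * x₀ * w⁻¹)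
  two : TwoOf Q x₀ y₀

theorem t52_of_dat {ι : Type} [Fintype ι] [DecidableEq ι] {F : Type*} [Field F] {r : ℕ} (hr : r.Prime) (hr2 : r ≠ 2)
    (Q : QuadraticForm F (ι → F)) (hcen : Subgroup.center (Cfsg.Omega F ⇑Q) = ⊥) {x₀ y₀ : (ι → F) ≃ₗ[F] (ι → F)}
    (h : Dat r Q x₀ y₀) : T52 (Cfsg.POmega F ⇑Q) := by
  -- the embedding of `Om Q`
  obtain ⟨j, hj⟩ : ∃ j : Om Q →* Cfsg.POmega F ⇑Q, j = (QuotientGroup.mk' _).comp (omegaEquiv Q).symm.toMonoidHom :=
    ⟨_, rfl⟩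
  have hinj : ∀ a, j a = 1 → a = 1 := by
    intro a ha
    rw [hj] at ha
    have h1 : (omegaEquiv Q).symm a ∈ Subgroup.center (Cfsg.Omega F ⇑Q) := (QuotientGroup.eq_one_iff _).1 ha
    rw [hcen, Subgroup.mem_bot] at h1
    exact (omegaEquiv Q).symm.injective (h1.trans (map_one _).symm)
  have hsur : ∀ g : Cfsg.POmega F ⇑Q, ∃ a, j a = g := by
    intro g
    obtain ⟨g, rfl⟩ := QuotientGroup.mk_surjective g
    refine ⟨omegaEquiv Q g, ?_⟩
    rw [hj]
    show QuotientGroup.mk ((omegaEquiv Q).symm (omegaEquiv Q g)) = _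
    rw [MulEquiv.symm_apply_apply]
  have hscal : ∀ a : Om Q, (∃ c : F, ∀ v, (a : (ι → F) ≃ₗ[F] (ι → F)) v = c • v) → j a = 1 := by
    rintro a ⟨c, hc⟩
    rw [hj]
    show QuotientGroup.mk ((omegaEquiv Q).symm a) = _
    rw [QuotientGroup.eq_one_iff, Subgroup.mem_center_iff]
    intro k
    apply (omegaEquiv Q).injective
    rw [map_mul, map_mul, MulEquiv.apply_symm_apply]
    apply Subtype.ext
    apply LinearEquiv.ext
    intro v
    show (omegaEquiv Q k : (ι → F) ≃ₗ[F] (ι → F)) ((a : (ι → F) ≃ₗ[F] (ι → F)) v) =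
      (a : (ι → F) ≃ₗ[F] (ι → F)) ((omegaEquiv Q k : (ι → F) ≃ₗ[F] (ι → F)) v)
    rw [hc, hc, map_smul]
  obtain ⟨X, hX⟩ : ∃ X : Om Q, (X : (ι → F) ≃ₗ[F] (ι → F)) = x₀ := ⟨⟨x₀, h.hx⟩, rfl⟩
  obtain ⟨Y, hY⟩ : ∃ Y : Om Q, (Y : (ι → F) ≃ₗ[F] (ι → F)) = y₀ := ⟨⟨y₀, h.hy⟩, rfl⟩
  have hX1 : X ≠ 1 := by
    intro e
    apply h.x1
    rw [← hX, e]; rfl
  have hXr : X ^ r = 1 := by
    apply Subtype.ext
    show (X : (ι → F) ≃ₗ[F] (ι → F)) ^ r = 1
    rw [hX, h.xr]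
  have hY2 : Y ^ 2 ≠ 1 := by
    intro e
    apply h.y2
    rw [← hY]
    exact congrArg Subtype.val e
  have hYr : Y ^ r ≠ 1 := by
    intro e
    apply h.yn
    rw [← hY]
    exact congrArg Subtype.val e
  have hY2r : Y ^ (2 * r) = 1 := by
    apply Subtype.ext
    show (Y : (ι → F) ≃ₗ[F] (ι → F)) ^ (2 * r) = 1
    rw [hY, h.yr]
  have hoX : orderOf (j X) = r := by
    have : Fact r.Prime := ⟨hr⟩
    apply orderOf_eq_prime
    · rw [← map_pow, hXr, map_one]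
    · intro e
      exact hX1 (hinj _ e)
  have hoY : orderOf (j Y) = 2 * r := by
    have h1 : orderOf (j Y) ∣ 2 * r := orderOf_dvd_of_pow_eq_one (by rw [← map_pow, hY2r, map_one])
    have h2 : ¬ orderOf (j Y) ∣ 2 := by
      intro e
      exact hY2 (hinj _ (by rw [map_pow]; exact orderOf_dvd_iff_pow_eq_one.1 e))
    have h3 : ¬ orderOf (j Y) ∣ r := by
      intro e
      exact hYr (hinj _ (by rw [map_pow]; exact orderOf_dvd_iff_pow_eq_one.1 e))
    obtain ⟨a, b, ha, hb, hab⟩ := (Nat.dvd_mul).1 h1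
    rw [← hab] at h2 h3 ⊢
    rcases (Nat.dvd_prime Nat.prime_two).1 ha with ha1 | ha1 <;> rcases (Nat.dvd_prime hr).1 hb with hb1 | hb1
    · exact absurd (by rw [ha1, hb1]; exact one_dvd _) h2
    · exact absurd (by rw [ha1, hb1, one_mul]) h3
    · exact absurd (by rw [ha1, hb1]) h2
    · rw [ha1, hb1]
  have hlift : ∀ u ∈ Om Q, ∃ U : Om Q, (U : (ι → F) ≃ₗ[F] (ι → F)) = u := fun u hu => ⟨⟨u, hu⟩, rfl⟩
  refine T52.of_pair (x := j X) (y := j Y) (by rw [hoX]; exact hr)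
    (Or.inr ⟨2, r, Nat.prime_two, hr, hr2.symm, hoY⟩) (fun g hg => ?_) ?_ ?_
  · obtain ⟨a, rfl⟩ := hsur g
    have hs : ∀ c : F, ∃ v, (a : (ι → F) ≃ₗ[F] (ι → F)) v ≠ c • v := by
      by_contra hs
      push Not at hs
      exact hg (hscal a hs)
    obtain ⟨u, hu, v, hv, e⟩ := h.two _ a.2 hs
    obtain ⟨U, rfl⟩ := hlift u hu
    obtain ⟨W, rfl⟩ := hlift v hv
    refine ⟨j U, j W, ?_⟩
    have e2 : a = (U * X * U⁻¹) * (W * Y * W⁻¹) := by
      apply Subtype.ext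
      rw [e, ← hX, ← hY]
      rfl
    conv_lhs => rw [e2]
    simp only [map_mul, map_inv]
  · obtain ⟨u, hu, v, hv, e⟩ := h.yx
    obtain ⟨U, rfl⟩ := hlift u hu
    obtain ⟨W, rfl⟩ := hlift v hv
    refine ⟨j U, j W, ?_⟩
    have e2 : Y = (U * X * U⁻¹) * (W * X * W⁻¹) := by
      apply Subtype.ext
      rw [hY, e, ← hX]
      rfl
    conv_lhs => rw [e2]
    simp only [map_mul, map_inv]
  · obtain ⟨u, hu, v, hv, w, hw, e⟩ := h.one
    obtain ⟨U, rfl⟩ := hlift u hu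
    obtain ⟨W, rfl⟩ := hlift v hv
    obtain ⟨Z, rfl⟩ := hlift w hw
    refine ⟨j U, j W, j Z, ?_⟩
    have e2 : (1 : Om Q) = (U * X * U⁻¹) * (W * X * W⁻¹) * (Z * X * Z⁻¹) := by
      apply Subtype.ext
      show (1 : (ι → F) ≃ₗ[F] (ι → F)) = _
      rw [e, ← hX]
      rfl
    have e3 := congrArg j e2
    simpa only [map_mul, map_inv, map_one] using e3

/-! ### the Siegel frame -/

section Frame

variable {F V : Type*} [Field F] [AddCommGroup V] [Module F V] {Q : QuadraticForm F V} [Finite F]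
  [FiniteDimensional F V] {k : ℕ}

/-- two conjugates of `lev X₀ 1` for a nonscalar matrix of determinant one -/
theorem lev_pr (hQ : Nondeg Q) (hk : 1 ≤ k) {e e' : Fin (k + 2) → V} (hf : Frame Q e e')
    {B : Matrix (Fin (k + 1)) (Fin (k + 1)) F} (hB : Cyc B) (hBd : B.det = 1) (hB1 : B.charpoly.eval 1 ≠ 0)
    {X₀ : GL (Fin (k + 2)) F} (hX₀ : (X₀ : Matrix (Fin (k + 2)) (Fin (k + 2)) F) = blk 1 B)
    {A : GL (Fin (k + 2)) F} (hA : (A : Matrix (Fin (k + 2)) (Fin (k + 2)) F).det = 1)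
    (hns : ∀ a : F, (A : Matrix (Fin (k + 2)) (Fin (k + 2)) F) ≠ scalar (Fin (k + 2)) a) :
    ∃ u ∈ Om Q, ∃ v ∈ Om Q, (autE hf.toModel).symm (lev A 1) =
      (u * (autE hf.toModel).symm (lev X₀ 1) * u⁻¹) * (v * (autE hf.toModel).symm (lev X₀ 1) * v⁻¹) := by
  have he : ∀ v, MQ (k + 2) (res Q e e') (hf.toModel v) = Q v := hf.MQ_toModel
  have hG : Good (MQ (k + 2) (res Q e e')) := good_model hQ (by omega) hf
  obtain ⟨P, R, hP, hR, h⟩ := exists_mul_conj_blk (A : Matrix (Fin (k + 2)) (Fin (k + 2)) F) hns 1 B hB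
    (by rw [hBd]; exact one_ne_zero) one_ne_zero hB1 1 B hB (by rw [hBd]; exact one_ne_zero) one_ne_zero hB1
    (by rw [hA, hBd]; ring)
  obtain ⟨P', hP'⟩ : ∃ P' : GL (Fin (k + 2)) F, (P' : Matrix _ _ F) = P :=
    exists_gl (by rw [hP]; exact one_ne_zero)
  obtain ⟨R', hR'⟩ : ∃ R' : GL (Fin (k + 2)) F, (R' : Matrix _ _ F) = R :=
    exists_gl (by rw [hR]; exact one_ne_zero)
  have hAe : A = (P' * X₀ * P'⁻¹) * (R' * X₀ * R'⁻¹) := by
    apply Units.ext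
    simp only [Units.val_mul, Matrix.coe_units_inv]
    rw [hP', hR', hX₀, h]
  have hmem : ∀ S : GL (Fin (k + 2)) F, (S : Matrix (Fin (k + 2)) (Fin (k + 2)) F).det = 1 →
      (autE hf.toModel).symm (lev S (1 : perp Q e e' ≃ₗ[F] perp Q e e')) ∈ Om Q := by
    intro S hS
    rw [← autE_mem_Om he, MulEquiv.apply_symm_apply]
    exact lev_det_one_mem hG hS
  have e3 : ∀ (Z W : GL (Fin (k + 2)) F),
      lev (Z * W * Z⁻¹) (1 : perp Q e e' ≃ₗ[F] perp Q e e') =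
        lev Z (1 : perp Q e e' ≃ₗ[F] perp Q e e') * lev W (1 : perp Q e e' ≃ₗ[F] perp Q e e') *
          (lev Z (1 : perp Q e e' ≃ₗ[F] perp Q e e'))⁻¹ := by
    intro Z W
    rw [← lev_inv, ← lev_mul, ← lev_mul, one_mul, inv_one, mul_one]
  refine ⟨_, hmem P' (by rw [hP', hP]), _, hmem R' (by rw [hR', hR]), ?_⟩
  conv_lhs => rw [hAe]
  have e4 : lev ((P' * X₀ * P'⁻¹) * (R' * X₀ * R'⁻¹)) (1 : perp Q e e' ≃ₗ[F] perp Q e e') =
      lev (P' * X₀ * P'⁻¹) 1 * lev (R' * X₀ * R'⁻¹) 1 := by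
    rw [← lev_mul, one_mul]
  rw [e4, e3, e3]
  simp only [map_mul, map_inv]

theorem eq_one_of_lev {U : Type*} [AddCommGroup U] [Module F U] {m : ℕ} {A : GL (Fin m) F} {h : U ≃ₗ[F] U}
    (e : lev A h = 1) : (A : Matrix (Fin m) (Fin m) F) = 1 := by
  apply Matrix.ext_of_mulVec_single
  intro i
  have h1 := congrArg (fun T : M F U m ≃ₗ[F] M F U m => (T (Pi.single i 1, 0, 0)).1) e
  simp only [lev_apply] at h1
  rw [h1, Matrix.one_mulVec]
  rfl

theorem blk_inj {n : ℕ} {a b : F} {B D : Matrix (Fin n) (Fin n) F} (h : blk a B = blk b D) : a = b ∧ B = D := by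
  constructor
  · have := congrFun (congrFun h 0) 0
    simpa using this
  · ext i j
    have := congrFun (congrFun h i.succ) j.succ
    simpa using this

theorem ne_one_of_eval {n : ℕ} {B : Matrix (Fin (n + 1)) (Fin (n + 1)) F} (h : B.charpoly.eval 1 ≠ 0) : B ≠ 1 := by
  rintro rfl
  apply h
  rw [Matrix.charpoly_one]
  simp

/-- the data in a Siegel frame -/
theorem dat_of (h2 : (2 : F) ≠ 0) (hQ : Nondeg Q) (hk : 1 ≤ k) (hke : Even k) {e e' : Fin (k + 2) → V}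
    (hf : Frame Q e e') {r : ℕ} (hr : Odd r) {B D : Matrix (Fin (k + 1)) (Fin (k + 1)) F} (hB : Cyc B)
    (hBd : B.det = 1) (hB1 : B.charpoly.eval 1 ≠ 0) (hBr : B ^ r = 1) (hDd : D.det = 1)
    (hD1 : D.charpoly.eval 1 ≠ 0) (hDr : D ^ r = 1)
    {X₀ Y₀ : GL (Fin (k + 2)) F} (hX₀ : (X₀ : Matrix (Fin (k + 2)) (Fin (k + 2)) F) = blk 1 B)
    (hY₀ : (Y₀ : Matrix (Fin (k + 2)) (Fin (k + 2)) F) = blk (-1) (-D))
    (h : TwoOf Q ((autE hf.toModel).symm (lev X₀ 1)) ((autE hf.toModel).symm (lev Y₀ 1))) :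
    Dat r Q ((autE hf.toModel).symm (lev X₀ 1)) ((autE hf.toModel).symm (lev Y₀ 1)) := by
  have he : ∀ v, MQ (k + 2) (res Q e e') (hf.toModel v) = Q v := hf.MQ_toModel
  have hG : Good (MQ (k + 2) (res Q e e')) := good_model hQ (by omega) hf
  have hmem : ∀ S : GL (Fin (k + 2)) F, (S : Matrix (Fin (k + 2)) (Fin (k + 2)) F).det = 1 →
      (autE hf.toModel).symm (lev S (1 : perp Q e e' ≃ₗ[F] perp Q e e')) ∈ Om Q := by
    intro S hS
    rw [← autE_mem_Om he, MulEquiv.apply_symm_apply]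
    exact lev_det_one_mem hG hS
  have hXd : (X₀ : Matrix (Fin (k + 2)) (Fin (k + 2)) F).det = 1 := by
    rw [hX₀, blk_det, hBd, one_mul]
  have hYd : (Y₀ : Matrix (Fin (k + 2)) (Fin (k + 2)) F).det = 1 := by
    rw [hY₀, blk_det, det_neg, Fintype.card_fin, hDd, mul_one, hke.add_one.neg_one_pow]
    ring
  have hpow : ∀ (S : GL (Fin (k + 2)) F) (s : ℕ), ((autE hf.toModel).symm
      (lev S (1 : perp Q e e' ≃ₗ[F] perp Q e e'))) ^ s = (autE hf.toModel).symm (lev (S ^ s) 1) := by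
    intro S s
    rw [← map_pow, lev_pow, one_pow]
  have hone : ∀ S : GL (Fin (k + 2)) F, (autE hf.toModel).symm (lev S (1 : perp Q e e' ≃ₗ[F] perp Q e e')) = 1 →
      (S : Matrix (Fin (k + 2)) (Fin (k + 2)) F) = 1 := by
    intro S hS
    have h1 : lev S (1 : perp Q e e' ≃ₗ[F] perp Q e e') = 1 := by
      apply (autE hf.toModel).symm.injective
      rw [hS, map_one]
    exact eq_one_of_lev h1
  have hone' : ∀ S : GL (Fin (k + 2)) F, (S : Matrix (Fin (k + 2)) (Fin (k + 2)) F) = 1 →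
      (autE hf.toModel).symm (lev S (1 : perp Q e e' ≃ₗ[F] perp Q e e')) = 1 := by
    intro S hS
    have h1 : S = 1 := Units.ext hS
    rw [h1, lev_one, map_one]
  have hsc : ∀ (a b : F) (E : Matrix (Fin (k + 1)) (Fin (k + 1)) F), blk a E = scalar (Fin (k + 2)) b →
      E = scalar (Fin (k + 1)) a := by
    intro a b E hE
    have h1 : a = b := by
      have := congrFun (congrFun hE 0) 0
      simpa using this
    ext i j
    have := congrFun (congrFun hE i.succ) j.succ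
    rw [blk_succ_succ] at this
    rw [this, h1, scalar_apply, scalar_apply, diagonal_apply, diagonal_apply]
    simp [Fin.succ_inj]
  have hone0 : (1 : Matrix (Fin (k + 2)) (Fin (k + 2)) F) = blk 1 1 := blk_one.symm
  have yx := lev_pr hQ hk hf hB hBd hB1 hX₀ (A := Y₀) hYd (by
    intro a ha
    rw [hY₀] at ha
    have h1 := hsc _ _ _ ha
    apply ne_one_of_eval hD1
    have h3 : -D = -1 := by rw [h1, map_neg, map_one]
    exact neg_injective h3)
  have xx := lev_pr hQ hk hf hB hBd hB1 hX₀ (A := X₀⁻¹) (by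
    rw [Matrix.coe_units_inv, det_nonsing_inv, hXd]; simp) (by
    intro a ha
    have h1 : (X₀ : Matrix (Fin (k + 2)) (Fin (k + 2)) F) * scalar (Fin (k + 2)) a = 1 := by
      rw [← ha, ← Units.val_mul, mul_inv_cancel, Units.val_one]
    have h3 : a ≠ 0 := by
      rintro rfl
      rw [map_zero, mul_zero] at h1
      exact zero_ne_one h1
    have h4 : (X₀ : Matrix (Fin (k + 2)) (Fin (k + 2)) F) = scalar (Fin (k + 2)) a⁻¹ := by
      calc (X₀ : Matrix (Fin (k + 2)) (Fin (k + 2)) F) = (X₀ : Matrix (Fin (k + 2)) (Fin (k + 2)) F) *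
          scalar (Fin (k + 2)) a * scalar (Fin (k + 2)) a⁻¹ := by
            rw [mul_assoc, ← map_mul, mul_inv_cancel₀ h3, map_one, mul_one]
        _ = _ := by rw [h1, one_mul]
    rw [hX₀] at h4
    apply ne_one_of_eval hB1
    rw [hsc _ _ _ h4]; simp)
  refine ⟨hmem _ hXd, hmem _ hYd, ?_, ?_, ?_, ?_, ?_, yx, ?_, h⟩
  · rw [hpow]
    apply hone'
    rw [Units.val_pow_eq_pow_val, hX₀, blk_pow, one_pow, hBr, blk_one]
  · rw [hpow]
    apply hone'
    rw [Units.val_pow_eq_pow_val, hY₀, blk_pow, pow_mul, pow_mul, neg_one_sq, one_pow, neg_sq, ← pow_mul, mul_comm,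
      pow_mul, hDr, one_pow, blk_one]
  · intro e1
    have h1 := hone _ e1
    rw [hX₀, hone0] at h1
    exact ne_one_of_eval hB1 (blk_inj h1).2
  · rw [hpow]
    intro e1
    have h1 := hone _ e1
    rw [Units.val_pow_eq_pow_val, hY₀, blk_pow, hone0] at h1
    have h3 := (blk_inj h1).2
    rw [neg_sq] at h3
    apply ne_one_of_eval hD1
    obtain ⟨s, hs⟩ := hr
    calc D = (D ^ 2) ^ s * D := by rw [h3, one_pow, one_mul]
      _ = D ^ r := by rw [← pow_mul, hs, ← pow_succ]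
      _ = 1 := hDr
  · rw [hpow]
    intro e1
    have h1 := hone _ e1
    rw [Units.val_pow_eq_pow_val, hY₀, blk_pow, hone0] at h1
    have h3 := (blk_inj h1).1
    rw [hr.neg_one_pow] at h3
    apply h2
    linear_combination -h3
  · obtain ⟨u, hu, v, hv, e1⟩ := xx
    refine ⟨u, hu, v, hv, 1, one_mem _, ?_⟩
    rw [← e1, one_mul, inv_one, mul_one, ← map_mul, ← lev_mul, inv_mul_cancel, one_mul, lev_one, map_one]

end Frame

/-! ### the row -/

/-- the standard frame -/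
theorem std_frame {F : Type*} [Field F] (m : ℕ) : Frame (oddForm m F)
    (fun i : Fin m => Pi.single (Sum.inr (Sum.inl i)) 1) (fun i : Fin m => Pi.single (Sum.inr (Sum.inr i)) 1) := by
  refine ⟨fun i => ?_, fun i => ?_, fun i j => ?_, fun i j => ?_, fun i j => ?_⟩
  · rw [coe_oddForm, quadFormOdd_apply]
    simp [Pi.single_apply]
  · rw [coe_oddForm, quadFormOdd_apply]
    simp [Pi.single_apply]
  · rw [polar_oddForm]
    simp [Pi.single_apply]
  · rw [polar_oddForm]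
    simp [Pi.single_apply]
  · rw [polar_oddForm]
    simp [Pi.single_apply, eq_comm]

/-- **The row `Ω_(2n+1)(q)`, `q` odd, `n = k + 2` even, from the covering statement.** -/
theorem t52_odd_of {F : Type*} [Field F] [Fintype F] (hodd : Odd (Fintype.card F)) {k : ℕ} (hk : 2 ≤ k)
    (hke : Even k)
    (H : ∀ (r : ℕ) (f : F[X]) (B D : GL (Fin (k + 1)) F) (X₀ Y₀ : GL (Fin (k + 2)) F) (e e' : Fin (k + 2) → _)
      (hf : Frame (oddForm (k + 2) F) e e'), r.Prime → r.Coprime 6 → GF (k + 1) r f →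
      (B : Matrix (Fin (k + 1)) (Fin (k + 1)) F).charpoly = f → (D : Matrix (Fin (k + 1)) (Fin (k + 1)) F).charpoly = f →
      (X₀ : Matrix (Fin (k + 2)) (Fin (k + 2)) F) = blk 1 B → (Y₀ : Matrix (Fin (k + 2)) (Fin (k + 2)) F) = blk (-1) (-D) →
      TwoOf (oddForm (k + 2) F) ((autE hf.toModel).symm (lev X₀ 1)) ((autE hf.toModel).symm (lev Y₀ 1))) :
    T52 (Cfsg.POmega F (Cfsg.quadFormOdd (k + 2) F)) := by
  have h2 : (2 : F) ≠ 0 := by
    intro h0
    have : CharP F 2 := CharTwo.of_one_ne_zero_of_two_eq_zero one_ne_zero h0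
    have h3 := (FiniteField.even_card_iff_char_two (F := F)).1 (ringChar.eq F 2)
    rw [Nat.odd_iff] at hodd
    omega
  obtain ⟨r, f, hr6, hr, hgf⟩ := exists_gf_prime hodd (n := k + 1) (by omega) hke.add_one
  have hr2 : r ≠ 2 := by
    rintro rfl
    exact absurd hr6 (by decide)
  have hro : Odd r := hr.odd_of_ne_two hr2
  have hf0 : f.coeff 0 ≠ 0 := by
    intro h0
    have := hgf.c0
    rw [h0, mul_zero] at this
    exact zero_ne_one this
  obtain ⟨B, hB⟩ := exists_matrix f hgf.monic hf0 hgf.deg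
  have hBd : (B : Matrix (Fin (k + 1)) (Fin (k + 1)) F).det = 1 := det_of_charpoly hB hgf.c0
  have hBN : B ^ r = 1 := pow_of_charpoly hB hgf.dvd
  have hBN' : (B : Matrix (Fin (k + 1)) (Fin (k + 1)) F) ^ r = 1 := by
    rw [← Units.val_pow_eq_pow_val, hBN, Units.val_one]
  have hBc : Cyc (B : Matrix (Fin (k + 1)) (Fin (k + 1)) F) :=
    Cfsg.Agent.H140.TC.cyc_of_irr (by omega) (by rw [hB]; exact hgf.irr)
  have hev : (B : Matrix (Fin (k + 1)) (Fin (k + 1)) F).charpoly.eval 1 ≠ 0 := by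
    rw [hB]
    exact eval_ne_zero hgf.irr (by rw [hgf.deg]; omega) 1
  obtain ⟨X₀, hX₀⟩ : ∃ X₀ : GL (Fin (k + 2)) F, (X₀ : Matrix (Fin (k + 2)) (Fin (k + 2)) F) =
      blk 1 (B : Matrix (Fin (k + 1)) (Fin (k + 1)) F) :=
    exists_gl (by rw [blk_det, hBd]; simp)
  obtain ⟨Y₀, hY₀⟩ : ∃ Y₀ : GL (Fin (k + 2)) F, (Y₀ : Matrix (Fin (k + 2)) (Fin (k + 2)) F) =
      blk (-1) (-(B : Matrix (Fin (k + 1)) (Fin (k + 1)) F)) :=
    exists_gl (by rw [blk_det, det_neg, hBd]; simp)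
  have hQ := nondeg_oddForm (k + 2) F h2
  have hcen : Subgroup.center (Cfsg.Omega F ⇑(oddForm (k + 2) F)) = ⊥ := by
    apply OrthCenter.center_omega_eq_bot_of_odd h2
    · exact ⟨fun x h => hQ x h, fun y h => hQ y fun x => by rw [polar_comm]; exact h x⟩
    · simp only [Fintype.card_sum, Fintype.card_unit, Fintype.card_fin]; omega
    · simp only [Fintype.card_sum, Fintype.card_unit, Fintype.card_fin]; exact ⟨k + 2, by omega⟩
    · refine ⟨_, ?_, (std_frame (k + 2)).sl 0⟩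
      intro h0
      have := congrFun h0 (Sum.inr (Sum.inl 0))
      simp at this
  have h5 := t52_of_dat hr hr2 (oddForm (k + 2) F) hcen
    (dat_of h2 hQ (by omega) hke (std_frame (k + 2)) hro hBc hBd hev hBN' hBd hev hBN' hX₀ hY₀
      (H r f B B X₀ Y₀ _ _ (std_frame (k + 2)) hr hr6 hgf hB hB hX₀ hY₀))
  rw [coe_oddForm] at h5
  exact h5

/-- the inverse has no eigenvalue one either -/
theorem eval_inv {F : Type*} [Field F] {m : ℕ} (B : GL (Fin m) F)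
    (h : (B : Matrix (Fin m) (Fin m) F).charpoly.eval 1 ≠ 0) :
    ((B⁻¹ : GL (Fin m) F) : Matrix (Fin m) (Fin m) F).charpoly.eval 1 ≠ 0 := by
  rw [Matrix.eval_charpoly, map_one] at h ⊢
  have h1 : (1 : Matrix (Fin m) (Fin m) F) - ((B⁻¹ : GL (Fin m) F) : Matrix (Fin m) (Fin m) F) =
      ((B⁻¹ : GL (Fin m) F) : Matrix (Fin m) (Fin m) F) * -(1 - (B : Matrix (Fin m) (Fin m) F)) := by
    rw [neg_sub, mul_sub, ← Units.val_mul, inv_mul_cancel, Units.val_one, mul_one]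
  rw [h1, det_mul, det_neg]
  have h3 : ((B⁻¹ : GL (Fin m) F) : Matrix (Fin m) (Fin m) F).det ≠ 0 := by
    have h4 : ((B⁻¹ : GL (Fin m) F) : Matrix (Fin m) (Fin m) F).det * (B : Matrix (Fin m) (Fin m) F).det = 1 := by
      rw [← det_mul, ← Units.val_mul, inv_mul_cancel, Units.val_one, det_one]
    intro h5
    rw [h5, zero_mul] at h4
    exact zero_ne_one h4
  exact mul_ne_zero h3 (mul_ne_zero (pow_ne_zero _ (neg_ne_zero.2 one_ne_zero)) h)

/-- **The row, `x₀ = lev (diag (1, B)) 1`, `y₀ = lev (diag (-1, -B⁻¹)) 1`.** -/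
theorem t52_odd_inv {F : Type*} [Field F] [Fintype F] (hodd : Odd (Fintype.card F)) {k : ℕ} (hk : 2 ≤ k)
    (hke : Even k)
    (H : ∀ (r : ℕ) (f : F[X]) (B : GL (Fin (k + 1)) F) (X₀ Y₀ : GL (Fin (k + 2)) F) (e e' : Fin (k + 2) → _)
      (hf : Frame (oddForm (k + 2) F) e e'), r.Prime → r.Coprime 6 → GF (k + 1) r f →
      (B : Matrix (Fin (k + 1)) (Fin (k + 1)) F).charpoly = f →
      (B : Matrix (Fin (k + 1)) (Fin (k + 1)) F).det = 1 → B ^ r = 1 →
      (X₀ : Matrix (Fin (k + 2)) (Fin (k + 2)) F) = blk 1 B →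
      (Y₀ : Matrix (Fin (k + 2)) (Fin (k + 2)) F) =
        blk (-1) (-((B⁻¹ : GL (Fin (k + 1)) F) : Matrix (Fin (k + 1)) (Fin (k + 1)) F)) →
      TwoOf (oddForm (k + 2) F) ((autE hf.toModel).symm (lev X₀ 1)) ((autE hf.toModel).symm (lev Y₀ 1))) :
    T52 (Cfsg.POmega F (Cfsg.quadFormOdd (k + 2) F)) := by
  have h2 : (2 : F) ≠ 0 := by
    intro h0
    have : CharP F 2 := CharTwo.of_one_ne_zero_of_two_eq_zero one_ne_zero h0
    have h3 := (FiniteField.even_card_iff_char_two (F := F)).1 (ringChar.eq F 2)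
    rw [Nat.odd_iff] at hodd
    omega
  obtain ⟨r, f, hr6, hr, hgf⟩ := exists_gf_prime hodd (n := k + 1) (by omega) hke.add_one
  have hr2 : r ≠ 2 := by
    rintro rfl
    exact absurd hr6 (by decide)
  have hro : Odd r := hr.odd_of_ne_two hr2
  have hf0 : f.coeff 0 ≠ 0 := by
    intro h0
    have := hgf.c0
    rw [h0, mul_zero] at this
    exact zero_ne_one this
  obtain ⟨B, hB⟩ := exists_matrix f hgf.monic hf0 hgf.deg
  have hBd : (B : Matrix (Fin (k + 1)) (Fin (k + 1)) F).det = 1 := det_of_charpoly hB hgf.c0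
  have hBN : B ^ r = 1 := pow_of_charpoly hB hgf.dvd
  have hBN' : (B : Matrix (Fin (k + 1)) (Fin (k + 1)) F) ^ r = 1 := by
    rw [← Units.val_pow_eq_pow_val, hBN, Units.val_one]
  have hBc : Cyc (B : Matrix (Fin (k + 1)) (Fin (k + 1)) F) :=
    Cfsg.Agent.H140.TC.cyc_of_irr (by omega) (by rw [hB]; exact hgf.irr)
  have hev : (B : Matrix (Fin (k + 1)) (Fin (k + 1)) F).charpoly.eval 1 ≠ 0 := by
    rw [hB]
    exact eval_ne_zero hgf.irr (by rw [hgf.deg]; omega) 1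
  have hDd : ((B⁻¹ : GL (Fin (k + 1)) F) : Matrix (Fin (k + 1)) (Fin (k + 1)) F).det = 1 := by
    rw [Matrix.coe_units_inv, det_nonsing_inv, hBd]; simp
  have hDr : ((B⁻¹ : GL (Fin (k + 1)) F) : Matrix (Fin (k + 1)) (Fin (k + 1)) F) ^ r = 1 := by
    rw [← Units.val_pow_eq_pow_val, inv_pow, hBN, inv_one, Units.val_one]
  obtain ⟨X₀, hX₀⟩ : ∃ X₀ : GL (Fin (k + 2)) F, (X₀ : Matrix (Fin (k + 2)) (Fin (k + 2)) F) =
      blk 1 (B : Matrix (Fin (k + 1)) (Fin (k + 1)) F) :=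
    exists_gl (by rw [blk_det, hBd]; simp)
  obtain ⟨Y₀, hY₀⟩ : ∃ Y₀ : GL (Fin (k + 2)) F, (Y₀ : Matrix (Fin (k + 2)) (Fin (k + 2)) F) =
      blk (-1) (-((B⁻¹ : GL (Fin (k + 1)) F) : Matrix (Fin (k + 1)) (Fin (k + 1)) F)) :=
    exists_gl (by rw [blk_det, det_neg, hDd]; simp)
  have hQ := nondeg_oddForm (k + 2) F h2
  have hcen : Subgroup.center (Cfsg.Omega F ⇑(oddForm (k + 2) F)) = ⊥ := by
    apply OrthCenter.center_omega_eq_bot_of_odd h2
    · exact ⟨fun x h => hQ x h, fun y h => hQ y fun x => by rw [polar_comm]; exact h x⟩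
    · simp only [Fintype.card_sum, Fintype.card_unit, Fintype.card_fin]; omega
    · simp only [Fintype.card_sum, Fintype.card_unit, Fintype.card_fin]; exact ⟨k + 2, by omega⟩
    · refine ⟨_, ?_, (std_frame (k + 2)).sl 0⟩
      intro h0
      have := congrFun h0 (Sum.inr (Sum.inl 0))
      simp at this
  have h5 := t52_of_dat hr hr2 (oddForm (k + 2) F) hcen
    (dat_of h2 hQ (by omega) hke (std_frame (k + 2)) hro hBc hBd hev hBN' hDd (eval_inv B hev) hDr hX₀ hY₀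
      (H r f B X₀ Y₀ _ _ (std_frame (k + 2)) hr hr6 hgf hB hBd hBN hX₀ hY₀))
  rw [coe_oddForm] at h5
  exact h5

end Cfsg.Agent.H370.TW
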