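import Cfsg.Agent.H370.TW.Rad
import Cfsg.Agent.H781.TW.Mul

/-!
# S2452, `Ω_(2n+1)(q)`, `q` odd, `n` even: a good frame gives the product (helper370)

* `good_pr` : `x₀ = lev (diag (1, B)) 1`, `y₀ = lev (diag (-1, D)) 1`; a frame of `g` with Schur complement `1`, corner of
  determinant `1`, and a vector `c` of the frame which is no eigenvector of the corner and has no middle component.
-/

set_option autoImplicit false
set_option linter.unusedSectionVars false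

namespace Cfsg.Agent.H370.TW

open Module QuadraticMap Matrix Polynomial Cfsg.Agent.LieClassical.OrthCore Cfsg.Agent.LieClassical.OrthTrans
  Cfsg.Agent.LieClassical.OrthFinite Cfsg.Agent.H140.OreO Cfsg.Agent.H126.PwO Cfsg.Agent.H962.PP
  Cfsg.Agent.H141.SpinFacts Cfsg.Agent.H140.TC

variable {F V : Type*} [Field F] [AddCommGroup V] [Module F V] {k : ℕ} {Q : QuadraticForm F V}

theorem cyc_transpose {B : Matrix (Fin (k + 1)) (Fin (k + 1)) F} (hB : Irreducible B.charpoly) : Cyc Bᵀ :=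
  Cfsg.Agent.H140.TC.cyc_of_irr (by omega) (by rw [charpoly_transpose]; exact hB)

section Fin

variable [Finite F] [FiniteDimensional F V]

/-- **A good frame gives the product.** -/
theorem good_pr (h2 : (2 : F) ≠ 0) (hQ : Nondeg Q) (hk : 1 ≤ k) {e e' : Fin (k + 2) → V}
    (hf : Frame Q e e') {B D : Matrix (Fin (k + 1)) (Fin (k + 1)) F}
    (hB : RP (k + 1) B.charpoly) (hD : RP (k + 1) D.charpoly) (hdet : (1 * B.det) * (-1 * D.det) = 1)
    {X₀ Y₀ : GL (Fin (k + 2)) F} (hX₀ : (X₀ : Matrix (Fin (k + 2)) (Fin (k + 2)) F) = blk 1 B)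
    (hY₀ : (Y₀ : Matrix (Fin (k + 2)) (Fin (k + 2)) F) = blk (-1) D) {g : V ≃ₗ[F] V} (hgO : g ∈ O Q)
    {w w' : Fin (k + 2) → V} (hfw : Frame Q w w') (hS : SchurOne Q g w w') (hAdet : (corner Q g w w').det = 1)
    {c : Fin (k + 2) → F} (hc : ∀ d : F, corner Q g w w' *ᵥ c ≠ d • c)
    (hcm : ∀ v ∈ perp Q w w', polar Q (g (∑ i, c i • w i)) v = 0) :
    ∃ u ∈ Om Q, ∃ v ∈ Om Q, g = (u * (autE hf.toModel).symm (lev X₀ 1) * u⁻¹) *
      (v * (autE hf.toModel).symm (lev Y₀ 1) * v⁻¹) := by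
  have hfr := hf.finrank_perp
  have hG : Good Q := good_of_finite hQ (by omega)
  have he : ∀ v, MQ (k + 2) (res Q e e') (hf.toModel v) = Q v := hf.MQ_toModel
  have hq := hf.nondeg_res hQ
  obtain ⟨T, hT, hTl, hTr⟩ := frame_trans hQ hf hfw
  obtain ⟨g', hg'⟩ : ∃ g', g' = T⁻¹ * g * T := ⟨_, rfl⟩
  have hg'a : ∀ v, T (g' v) = g (T v) := by
    intro v
    rw [hg']
    exact T.apply_symm_apply _
  have hg'O : g' ∈ O Q := by
    rw [hg']
    exact (O Q).mul_mem ((O Q).mul_mem ((O Q).inv_mem hT) hgO) hT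
  -- the frame `e, e'` for `g'`
  have hcor : corner Q g' e e' = corner Q g w w' := by
    ext i j
    rw [corner_apply, corner_apply, ← polar_map hT, hg'a, hTl, hTr]
  have hTperp : ∀ v ∈ perp Q e e', T v ∈ perp Q w w' := by
    intro v hv i
    rw [← hTl, ← hTr, polar_map hT, polar_map hT]
    exact hv i
  have hS' : SchurOne Q g' e e' := by
    intro v hv
    obtain ⟨c, d, hcd⟩ := hS (T v) (hTperp v hv)
    refine ⟨c, d, ?_⟩
    apply T.injective
    have e1 : T (v + ∑ i, c i • e i) = T v + ∑ i, c i • w i := by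
      rw [map_add, map_sum]
      simp only [map_smul, hTl]
    have e2 : T (v + ∑ i, d i • e' i) = T v + ∑ i, d i • w' i := by
      rw [map_add, map_sum]
      simp only [map_smul, hTr]
    rw [hg'a, e1, e2, hcd]
  have hcm' : ∀ v ∈ perp Q e e', polar Q (g' (∑ i, c i • e i)) v = 0 := by
    intro v hv
    rw [← polar_map hT, hg'a, map_sum]
    simp only [map_smul, hTl]
    exact hcm _ (hTperp v hv)
  have hAne : (corner Q g w w').det ≠ 0 := by rw [hAdet]; exact one_ne_zero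
  obtain ⟨A, hAe⟩ : ∃ A : GL (Fin (k + 2)) F, (A : Matrix _ _ F) = corner Q g w w' :=
    ⟨Matrix.GeneralLinearGroup.mkOfDetNeZero _ hAne, rfl⟩
  -- the model
  obtain ⟨u₁, hu₁, g₁, hg₁, u₂, hu₂, edec⟩ := decomp ((autE_mem_O he).2 hg'O) A (fun a => by
    rw [corner_model, hcor, hAe])
  have h1 : g₁ = 1 := by
    apply LinearEquiv.ext
    intro v
    obtain ⟨c, d, hcd⟩ := schur_model hf hS' v
    exact schur_one_of hu₁ hu₂ edec hcd
  -- the vector `m = A c`
  obtain ⟨m, hm⟩ : ∃ m : Fin (k + 2) → F, m = (A : Matrix (Fin (k + 2)) (Fin (k + 2)) F) *ᵥ c := ⟨_, rfl⟩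
  have hmid : (u₁ (m, 0, 0)).2.1 = 0 := by
    have h3 : u₁ (m, 0, 0) = hf.toModel (g' (∑ i, c i • e i)) := by
      have h4 : autE hf.toModel g' (c, 0, 0) = u₁ (lev A g₁ (u₂ (c, 0, 0))) := by rw [edec]; rfl
      rw [hu₂.2.2.2 (c, 0, 0) rfl rfl, h1, lev_apply] at h4
      have h5 : autE hf.toModel g' (c, 0, 0) = hf.toModel (g' (hf.toModel.symm (c, 0, 0))) := rfl
      have h6 : hf.toModel.symm (c, 0, 0) = ∑ i, c i • e i := by
        rw [hf.toModel_symm_apply]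
        simp
      rw [h5, h6] at h4
      rw [h4, hm]
      simp
    rw [h3]
    apply hq
    intro p
    have h4 : polar (MQ (k + 2) (res Q e e')) (hf.toModel (g' (∑ i, c i • e i))) (0, p, 0) = 0 := by
      have h5 : ((0, p, 0) : M F (perp Q e e') (k + 2)) = hf.toModel (p : V) := by
        rw [← LinearEquiv.symm_apply_eq, hf.toModel_symm_apply]
        simp
      rw [h5, polar, ← map_add, he, he, he]
      exact hcm' _ p.2
    rw [polar_MQ] at h4
    simpa using h4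
  have hmA : corner Q g w w' *ᵥ m ∉ Submodule.span F {m} := by
    intro hmem
    obtain ⟨d, hd⟩ := Submodule.mem_span_singleton.1 hmem
    have hd' : corner Q g w w' *ᵥ (m - d • c) = 0 := by
      rw [mulVec_sub, mulVec_smul, ← hAe, ← hm, hAe, hd, sub_self]
    have h3 : m - d • c = 0 := by
      by_contra h4
      exact hAne (Matrix.exists_mulVec_eq_zero_iff.1 ⟨_, h4, hd'⟩)
    apply hc d
    rw [← hAe, ← hm]
    exact sub_eq_zero.1 h3
  have hm0 : m ≠ 0 := by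
    intro h0
    apply hmA
    rw [h0, mulVec_zero]
    exact Submodule.zero_mem _
  -- the factorisation of the corner
  have hBd : B.det ≠ 0 := by
    intro h0
    rw [h0] at hdet
    simp at hdet
  have hDd : D.det ≠ 0 := by
    intro h0
    rw [h0] at hdet
    simp at hdet
  have hBe : B.charpoly.eval 1 ≠ 0 := hB.eval_ne (by omega) 1
  have hDe : D.charpoly.eval (-1) ≠ 0 := hD.eval_ne (by omega) _
  have hY' : Cyc (blk (-1) D)ᵀ := by
    rw [Cfsg.Agent.H781.TW.blk_transpose']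
    exact cyc_blk (cyc_transpose hD.irr) (by rw [charpoly_transpose]; exact hDe)
  obtain ⟨P, R, hP, hR, hPR, hXm⟩ := Cfsg.Agent.H781.TW.exists_mul_vec (corner Q g w w') (m := m) hmA 1 B
    (cyc_transpose hB.irr) hBd one_ne_zero hBe (blk (-1) D) hY'
    (by rw [blk_det]; exact mul_ne_zero (neg_ne_zero.2 one_ne_zero) hDd) (by rw [hAdet, blk_det, hdet])
  obtain ⟨P', hP'⟩ : ∃ P' : GL (Fin (k + 2)) F, (P' : Matrix _ _ F) = P :=
    ⟨Matrix.GeneralLinearGroup.mkOfDetNeZero P hP.ne_zero, rfl⟩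
  obtain ⟨R', hR'⟩ : ∃ R' : GL (Fin (k + 2)) F, (R' : Matrix _ _ F) = R :=
    ⟨Matrix.GeneralLinearGroup.mkOfDetNeZero R hR.ne_zero, rfl⟩
  have hPi : ((P'⁻¹ : GL (Fin (k + 2)) F) : Matrix _ _ F) = P⁻¹ := by
    rw [Matrix.coe_units_inv, hP']
  have hRi : ((R'⁻¹ : GL (Fin (k + 2)) F) : Matrix _ _ F) = R⁻¹ := by
    rw [Matrix.coe_units_inv, hR']
  have hcX : ((P' * X₀ * P'⁻¹ : GL (Fin (k + 2)) F) : Matrix (Fin (k + 2)) (Fin (k + 2)) F) = P * blk 1 B * P⁻¹ := by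
    simp only [Units.val_mul]
    rw [hPi, hP', hX₀]
  have hcY : ((R' * Y₀ * R'⁻¹ : GL (Fin (k + 2)) F) : Matrix (Fin (k + 2)) (Fin (k + 2)) F) =
      R * blk (-1) D * R⁻¹ := by
    simp only [Units.val_mul]
    rw [hRi, hR', hY₀]
  have hAXY : A = (P' * X₀ * P'⁻¹) * (R' * Y₀ * R'⁻¹) := by
    apply Units.ext
    rw [Units.val_mul, hcX, hcY, hAe, hPR]
  have hXm' : ((P' * X₀ * P'⁻¹ : GL (Fin (k + 2)) F) : Matrix (Fin (k + 2)) (Fin (k + 2)) F) *ᵥ m = m := by
    rw [hcX, hXm, one_smul]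
  have hXc : ((P' * X₀ * P'⁻¹ : GL (Fin (k + 2)) F) : Matrix (Fin (k + 2)) (Fin (k + 2)) F).charpoly =
      (X - C 1) * B.charpoly := by
    rw [← blk_charpoly]
    simp only [Units.val_mul]
    rw [hPi, hP', hX₀]
    have := Matrix.charpoly_units_conj P' (blk 1 B)
    rw [hP'] at this
    rw [← this]
  have hYy : Cop (R' * Y₀ * R'⁻¹) (1 : perp Q e e' ≃ₗ[F] perp Q e e') := by
    have hYc : ((R' * Y₀ * R'⁻¹ : GL (Fin (k + 2)) F) : Matrix (Fin (k + 2)) (Fin (k + 2)) F).charpoly =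
        (X - C (-1)) * D.charpoly := by
      rw [← blk_charpoly]
      simp only [Units.val_mul]
      rw [hRi, hR', hY₀]
      have := Matrix.charpoly_units_conj R' (blk (-1) D)
      rw [hR'] at this
      rw [← this]
    refine cop_of_eps (by ring) hYc hDe hD.cop (un_one ?_) (un_one (hD.eval_ne (by omega) 1)) (un_one ?_)
    · rw [eval_sub, eval_X, eval_C]
      intro h
      apply h2
      linear_combination h
    · have h0 := hD.coeff_ne (by omega)
      exact eval_ne_zero (irreducible_rev hD.irr h0) (by rw [natDegree_rev h0, hD.deg]; omega) 1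
  have hK := hK_of_conj (X := P' * X₀ * P'⁻¹) (P := P') (B := B) hBe (by
    rw [hcX, hPi, hP']) hm0 hXm'
  obtain ⟨v₁, hv₁, v₂, hv₂, e2⟩ := stepFix (Q := res Q e e') hu₁ hu₂ hXm' hK
    (hc_of_charpoly hXc hBe hB.cop) hmid hYy
  rw [← hAXY] at e2
  rw [h1] at edec
  rw [← edec] at e2
  have e3 : ∀ (Z W : GL (Fin (k + 2)) F) (z : perp Q e e' ≃ₗ[F] perp Q e e'),
      lev (Z * W * Z⁻¹) z = lev Z 1 * lev W z * (lev Z 1)⁻¹ := by
    intro Z W z
    rw [← lev_inv, ← lev_mul, ← lev_mul, one_mul, inv_one, mul_one]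
  rw [e3, e3] at e2
  -- back to `V`
  have back : ∀ s ∈ Om (MQ (k + 2) (res Q e e')), (autE hf.toModel).symm s ∈ O Q := by
    intro s hs
    rw [← autE_mem_O he, MulEquiv.apply_symm_apply]
    exact Om_le hs
  have backL : ∀ Z : GL (Fin (k + 2)) F, (autE hf.toModel).symm (lev Z (1 : perp Q e e' ≃ₗ[F] perp Q e e')) ∈ O Q := by
    intro Z
    rw [← autE_mem_O he, MulEquiv.apply_symm_apply]
    exact lev_mem (O _).one_mem
  obtain ⟨s₁, hs₁⟩ : ∃ s, s = T * (autE hf.toModel).symm v₁ * (autE hf.toModel).symm (lev P' 1) := ⟨_, rfl⟩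
  obtain ⟨s₂, hs₂⟩ : ∃ s, s = T * (autE hf.toModel).symm v₂ * (autE hf.toModel).symm (lev R' 1) := ⟨_, rfl⟩
  have hs₁O : s₁ ∈ O Q := by
    rw [hs₁]
    exact (O Q).mul_mem ((O Q).mul_mem hT (back _ hv₁)) (backL _)
  have hs₂O : s₂ ∈ O Q := by
    rw [hs₂]
    exact (O Q).mul_mem ((O Q).mul_mem hT (back _ hv₂)) (backL _)
  have e4 : g = (s₁ * (autE hf.toModel).symm (lev X₀ 1) * s₁⁻¹) *
      (s₂ * (autE hf.toModel).symm (lev Y₀ 1) * s₂⁻¹) := by
    have e5 : g' = (autE hf.toModel).symm (v₁ * (lev P' 1 * lev X₀ 1 * (lev P' 1)⁻¹) * v₁⁻¹ *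
        (v₂ * (lev R' 1 * lev Y₀ 1 * (lev R' 1)⁻¹) * v₂⁻¹)) := by
      rw [← e2, MulEquiv.symm_apply_apply]
    have e6 : g = T * g' * T⁻¹ := by rw [hg']; group
    rw [e6, e5, hs₁, hs₂]
    simp only [map_mul, map_inv]
    group
  have hyp : Hyp Q (e 0) (e' 0) := ⟨hf.sl 0, hf.sr 0, by rw [hf.lr]; simp⟩
  obtain ⟨u, hu, eu⟩ := conj_O hG (backL X₀) hyp (scale_l hf hX₀ _) (scale_r hf (one_mul 1) hX₀ _) hs₁O
  obtain ⟨v, hv, ev⟩ := conj_O hG (backL Y₀) hyp (scale_l hf hY₀ _) (scale_r hf (by ring) hY₀ _) hs₂O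
  exact ⟨u, hu, v, hv, by rw [e4, eu, ev]⟩

end Fin

end Cfsg.Agent.H370.TW
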