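import Cfsg.Agent.H781.TC6.Eng

/-!
# S2452, `Ω_(2n+1)(q)`, `q` odd, `n` even: the radical engine for `X` with a fixed vector (helper370)

* `exists_um_fix` : `X m = m`, `F^n = ⟨m⟩ + im (X - 1)`, no invariant alternating form, `u ∈ U⁻` with
  `(u (m, 0, 0)).2.1 = 0` : `u * lev X 1` is conjugate to `lev X 1`.
* `hK_of_conj`, `hc_of_charpoly` : the two conditions for `X = P * blk 1 B * P⁻¹`.
* `stepFix` : the product.
-/

set_option autoImplicit false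
set_option linter.unusedSectionVars false

namespace Cfsg.Agent.H370.TW

open Module QuadraticMap Matrix Polynomial Cfsg.Agent.LieClassical.OrthCore Cfsg.Agent.LieClassical.OrthTrans
  Cfsg.Agent.LieClassical.OrthFinite Cfsg.Agent.H140.OreO Cfsg.Agent.H126.PwO Cfsg.Agent.H962.PP
  Cfsg.Agent.H141.SpinFacts Cfsg.Agent.H140.TC

variable {F V : Type*} [Field F] [AddCommGroup V] [Module F V] {n : ℕ} {Q : QuadraticForm F V}

/-- the elements of `U⁻` whose vector part vanishes at `m` -/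
def UmAt (Q : QuadraticForm F V) (m : Fin n → F) : Subgroup (M F V n ≃ₗ[F] M F V n) where
  carrier := {u | u ∈ Um n Q ∧ (u (m, 0, 0)).2.1 = 0}
  one_mem' := ⟨(Um n Q).one_mem, rfl⟩
  mul_mem' {a b} ha hb := by
    refine ⟨(Um n Q).mul_mem ha.1 hb.1, ?_⟩
    show (a (b (m, 0, 0))).2.1 = 0
    have h1 : b (m, 0, 0) = (m, 0, 0) + (0, 0, (b (m, 0, 0)).2.2) := by
      refine Prod.ext ?_ (Prod.ext ?_ ?_)
      · rw [hb.1.2.1]; simp
      · rw [hb.2]; simp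
      · simp
    rw [h1, map_add, ha.1.2.2.2 (0, 0, _) rfl rfl]
    show (a (m, 0, 0)).2.1 + 0 = 0
    rw [ha.2, add_zero]
  inv_mem' {a} ha := by
    refine ⟨(Um n Q).inv_mem ha.1, ?_⟩
    have h1 : a (m, 0, 0) = (m, 0, 0) + (0, 0, (a (m, 0, 0)).2.2) := by
      refine Prod.ext ?_ (Prod.ext ?_ ?_)
      · rw [ha.1.2.1]; simp
      · rw [ha.2]; simp
      · simp
    have h2 : a ((m, 0, 0) + (0, 0, -(a (m, 0, 0)).2.2)) = (m, 0, 0) := by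
      rw [map_add, ha.1.2.2.2 (0, 0, -(a (m, 0, 0)).2.2) rfl rfl]
      conv_lhs => rw [h1]
      refine Prod.ext ?_ (Prod.ext ?_ ?_) <;> simp
    have h3 : a⁻¹ (m, 0, 0) = (m, 0, 0) + (0, 0, -(a (m, 0, 0)).2.2) := by
      show a.symm (m, 0, 0) = _
      rw [LinearEquiv.symm_apply_eq, h2]
    rw [h3]
    show (0 : V) + 0 = 0
    rw [add_zero]

theorem lev_conj_UmAt {X : GL (Fin n) F} {m : Fin n → F} (hm : (X : Matrix (Fin n) (Fin n) F) *ᵥ m = m)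
    {u : M F V n ≃ₗ[F] M F V n} (hu : u ∈ UmAt Q m) : lev X 1 * u * (lev X 1)⁻¹ ∈ UmAt Q m := by
  refine ⟨lev_conj_Um (O Q).one_mem hu.1, ?_⟩
  rw [← lev_inv]
  show (lev X 1 (u (lev X⁻¹ 1⁻¹ (m, 0, 0)))).2.1 = 0
  have hm' : ((X⁻¹ : GL (Fin n) F) : Matrix (Fin n) (Fin n) F) *ᵥ m = m := by
    conv_lhs => rw [← hm]
    rw [mulVec_mulVec, ← Units.val_mul, inv_mul_cancel, Units.val_one, one_mulVec]
  have h1 : lev X⁻¹ (1⁻¹ : V ≃ₗ[F] V) (m, 0, 0) = (m, 0, 0) := by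
    refine Prod.ext ?_ (Prod.ext ?_ ?_)
    · exact hm'
    · rfl
    · exact mulVec_zero (ti X⁻¹ : Matrix (Fin n) (Fin n) F)
  rw [h1, lev_apply]
  exact hu.2

/-- no fixed points -/
theorem um_fix {X : GL (Fin n) F} {m : Fin n → F}
    (hK : ∀ a : Fin n → F, ∃ (c : F) (b : Fin n → F), a = c • m + ((X : Matrix (Fin n) (Fin n) F) *ᵥ b - b))
    (hc : ∀ f : (Fin n → F) →ₗ[F] (Fin n → F), (∀ a, a ⬝ᵥ f a = 0) →
      (∀ a, f ((X : Matrix (Fin n) (Fin n) F) *ᵥ a) = (ti X : Matrix (Fin n) (Fin n) F) *ᵥ f a) → f = 0)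
    {u : M F V n ≃ₗ[F] M F V n} (hu : u ∈ UmAt Q m) (hcomm : u * lev X 1 = lev X 1 * u) : u = 1 := by
  obtain ⟨hu, hu0⟩ := hu
  have hx : ∀ x, u (lev X 1 x) = lev X 1 (u x) := fun x => LinearEquiv.congr_fun hcomm x
  let f1 : (Fin n → F) →ₗ[F] V := LinearMap.fst F V (Fin n → F) ∘ₗ LinearMap.snd F _ _ ∘ₗ
    (u : M F V n →ₗ[F] M F V n) ∘ₗ LinearMap.inl F (Fin n → F) (V × (Fin n → F))
  let f3 : (Fin n → F) →ₗ[F] (Fin n → F) := LinearMap.snd F V (Fin n → F) ∘ₗ LinearMap.snd F _ _ ∘ₗ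
    (u : M F V n →ₗ[F] M F V n) ∘ₗ LinearMap.inl F (Fin n → F) (V × (Fin n → F))
  have h1X : ∀ a, f1 ((X : Matrix (Fin n) (Fin n) F) *ᵥ a) = f1 a := by
    intro a
    have := hx (a, 0, 0)
    rw [lev_apply, lev_apply] at this
    simp only [mulVec_zero, map_zero] at this
    exact congrArg (fun y => y.2.1) this
  have e1' : ∀ a, (u (a, 0, 0)).2.1 = 0 := by
    intro a
    obtain ⟨c, b, hab⟩ := hK a
    show f1 a = 0
    rw [hab, map_add, map_smul, map_sub, h1X, sub_self, add_zero]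
    have : f1 m = 0 := hu0
    rw [this, smul_zero]
  have e2' : ∀ v, (u (0, v, 0)).2.2 = 0 := by
    intro v
    ext i
    have h1 := polar_map hu.1 (Pi.single i 1, 0, 0) (0, v, 0)
    rw [polar_MQ, polar_MQ, hu.2.1, hu.2.1, e1'] at h1
    simpa using h1
  have e3 : f3 = 0 := by
    apply hc
    · intro a
      have h1 := mem_O.1 hu.1 (a, 0, 0)
      rw [MQ_apply, MQ_apply', hu.2.1, e1'] at h1
      show a ⬝ᵥ (u (a, 0, 0)).2.2 = 0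
      simpa using h1
    · intro a
      have := hx (a, 0, 0)
      rw [lev_apply, lev_apply] at this
      simp only [mulVec_zero, map_zero] at this
      exact congrArg (fun y => y.2.2) this
  have e3' : ∀ a, (u (a, 0, 0)).2.2 = 0 := fun a => LinearMap.congr_fun e3 a
  apply LinearEquiv.ext
  intro x
  have hd : x = (x.1, 0, 0) + ((0, x.2.1, 0) + (0, 0, x.2.2)) := by
    refine Prod.ext (by simp) (Prod.ext (by simp) (by simp))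
  have h1 : u (x.1, 0, 0) = (x.1, 0, 0) :=
    Prod.ext (hu.2.1 _) (Prod.ext (e1' _) (e3' _))
  have h2 : u (0, x.2.1, 0) = (0, x.2.1, 0) :=
    Prod.ext (hu.2.1 _) (Prod.ext (hu.2.2.1 _ rfl) (e2' _))
  have h3 : u (0, 0, x.2.2) = (0, 0, x.2.2) := hu.2.2.2 _ rfl rfl
  conv_lhs => rw [hd, map_add, map_add, h1, h2, h3, ← hd]
  rfl

section Fin

variable [Finite F] [FiniteDimensional F V]

/-- **The radical engine.** -/
theorem exists_um_fix {X : GL (Fin n) F} {m : Fin n → F} (hm : (X : Matrix (Fin n) (Fin n) F) *ᵥ m = m)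
    (hK : ∀ a : Fin n → F, ∃ (c : F) (b : Fin n → F), a = c • m + ((X : Matrix (Fin n) (Fin n) F) *ᵥ b - b))
    (hc : ∀ f : (Fin n → F) →ₗ[F] (Fin n → F), (∀ a, a ⬝ᵥ f a = 0) →
      (∀ a, f ((X : Matrix (Fin n) (Fin n) F) *ᵥ a) = (ti X : Matrix (Fin n) (Fin n) F) *ᵥ f a) → f = 0)
    {u : M F V n ≃ₗ[F] M F V n} (hu : u ∈ Um n Q) (hu0 : (u (m, 0, 0)).2.1 = 0) :
    ∃ v ∈ Um n Q, v ∈ Om (MQ n Q) ∧ u * lev X 1 = v * lev X 1 * v⁻¹ := by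
  have := finite_subgroup (UmAt Q m)
  have key : ∀ u ∈ UmAt Q m, ∃ v ∈ UmAt Q m, u = v * lev X 1 * v⁻¹ * (lev X 1)⁻¹ := fun u hu =>
    exists_comm (UmAt Q m) (lev X 1) (fun u hu => lev_conj_UmAt hm hu) (fun u hu => um_fix hK hc hu) hu
  have hOm : ∀ u ∈ UmAt Q m, u ∈ Om (MQ n Q) := fun u hu => by
    obtain ⟨v, hv, rfl⟩ := key u hu
    exact comm_mem_Om hv.1.1 (lev_mem (O Q).one_mem)
  obtain ⟨v, hv, e⟩ := key u ⟨hu, hu0⟩
  exact ⟨v, hv.1, hOm v hv, by rw [e]; group⟩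

/-- **The product.** -/
theorem stepFix {X Y : GL (Fin n) F} {u₁ u₂ : M F V n ≃ₗ[F] M F V n} (hu₁ : u₁ ∈ Um n Q) (hu₂ : u₂ ∈ Up n Q)
    {m : Fin n → F} (hm : (X : Matrix (Fin n) (Fin n) F) *ᵥ m = m)
    (hK : ∀ a : Fin n → F, ∃ (c : F) (b : Fin n → F), a = c • m + ((X : Matrix (Fin n) (Fin n) F) *ᵥ b - b))
    (hc : ∀ f : (Fin n → F) →ₗ[F] (Fin n → F), (∀ a, a ⬝ᵥ f a = 0) →
      (∀ a, f ((X : Matrix (Fin n) (Fin n) F) *ᵥ a) = (ti X : Matrix (Fin n) (Fin n) F) *ᵥ f a) → f = 0)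
    (hu0 : (u₁ (m, 0, 0)).2.1 = 0) (hY : Cop Y (1 : V ≃ₗ[F] V)) :
    ∃ v₁ ∈ Om (MQ n Q), ∃ v₂ ∈ Om (MQ n Q),
      u₁ * lev (X * Y) 1 * u₂ = (v₁ * lev X 1 * v₁⁻¹) * (v₂ * lev Y 1 * v₂⁻¹) := by
  obtain ⟨v₁, -, hv₁', e₁⟩ := exists_um_fix hm hK hc hu₁ hu0
  obtain ⟨v₂, -, hv₂', e₂⟩ := hY.exists_up (O Q).one_mem (lev_conj_Up (A := Y) (O Q).one_mem hu₂)
  refine ⟨v₁, hv₁', v₂, hv₂', ?_⟩
  have e3 : lev (X * Y) (1 : V ≃ₗ[F] V) = lev X 1 * lev Y 1 := by rw [← lev_mul, one_mul]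
  rw [← e₁, ← e₂, e3]
  group

end Fin

/-! ### the conditions -/

/-- no invariant alternating form -/
theorem hc_of_charpoly {X : GL (Fin n) F} {f : F[X]}
    (hX : (X : Matrix (Fin n) (Fin n) F).charpoly = (Polynomial.X - C 1) * f) (hf1 : f.eval 1 ≠ 0)
    (hf : IsCoprime f f.reverse) :
    ∀ f : (Fin n → F) →ₗ[F] (Fin n → F), (∀ a, a ⬝ᵥ f a = 0) →
      (∀ a, f ((X : Matrix (Fin n) (Fin n) F) *ᵥ a) = (ti X : Matrix (Fin n) (Fin n) F) *ᵥ f a) → f = 0 := by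
  have hu : ∀ (x : (Fin 0 → F) ≃ₗ[F] (Fin 0 → F)) (p : F[X]), Un (x : Module.End F (Fin 0 → F)) p := fun x p =>
    isUnit_of_subsingleton _
  have h := cop_of_eps (A := X) (h := (1 : (Fin 0 → F) ≃ₗ[F] (Fin 0 → F))) (one_mul 1) hX hf1 hf (hu _ _) (hu _ _)
    (hu _ _)
  exact h.c

theorem blk_cons {k : ℕ} (a : F) (B : Matrix (Fin k) (Fin k) F) (x : F) (t : Fin k → F) :
    blk a B *ᵥ (Fin.cons x t : Fin (k + 1) → F) = Fin.cons (a * x) (B *ᵥ t) := by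
  ext i
  refine Fin.cases ?_ (fun i => ?_) i
  · simp [mulVec, dotProduct, Fin.sum_univ_succ]
  · simp [mulVec, dotProduct, Fin.sum_univ_succ]

theorem exists_sub_one {k : ℕ} {B : Matrix (Fin k) (Fin k) F} (hB1 : B.charpoly.eval 1 ≠ 0) (t : Fin k → F) :
    ∃ s, t = B *ᵥ s - s := by
  rw [Matrix.eval_charpoly, map_one] at hB1
  have hU : IsUnit (1 - B).det := isUnit_iff_ne_zero.2 hB1
  refine ⟨-((1 - B)⁻¹ *ᵥ t), ?_⟩
  have h1 : (1 - B) *ᵥ ((1 - B)⁻¹ *ᵥ t) = t := by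
    rw [mulVec_mulVec, mul_nonsing_inv _ hU, one_mulVec]
  rw [sub_mulVec, one_mulVec] at h1
  rw [mulVec_neg]
  conv_lhs => rw [← h1]
  abel

theorem fix_eq_zero {k : ℕ} {B : Matrix (Fin k) (Fin k) F} (hB1 : B.charpoly.eval 1 ≠ 0) {t : Fin k → F}
    (ht : B *ᵥ t = t) : t = 0 := by
  rw [Matrix.eval_charpoly, map_one] at hB1
  have hU : IsUnit (1 - B).det := isUnit_iff_ne_zero.2 hB1
  have h1 : (1 - B) *ᵥ t = 0 := by rw [sub_mulVec, one_mulVec, ht, sub_self]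
  calc t = (1 - B)⁻¹ *ᵥ ((1 - B) *ᵥ t) := by rw [mulVec_mulVec, nonsing_inv_mul _ hU, one_mulVec]
    _ = 0 := by rw [h1, mulVec_zero]

/-- `F^n = ⟨m⟩ + im (X - 1)` -/
theorem hK_of_conj {k : ℕ} {X P : GL (Fin (k + 1)) F} {B : Matrix (Fin k) (Fin k) F} (hB1 : B.charpoly.eval 1 ≠ 0)
    (hX : (X : Matrix (Fin (k + 1)) (Fin (k + 1)) F) = (P : Matrix _ _ F) * blk 1 B * ((P⁻¹ : GL _ F) : Matrix _ _ F))
    {m : Fin (k + 1) → F} (hm0 : m ≠ 0) (hm : (X : Matrix (Fin (k + 1)) (Fin (k + 1)) F) *ᵥ m = m) :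
    ∀ a : Fin (k + 1) → F, ∃ (c : F) (b : Fin (k + 1) → F),
      a = c • m + ((X : Matrix (Fin (k + 1)) (Fin (k + 1)) F) *ᵥ b - b) := by
  intro a
  have hPP : ∀ v, (P : Matrix (Fin (k + 1)) (Fin (k + 1)) F) *ᵥ (((P⁻¹ : GL (Fin (k + 1)) F) : Matrix _ _ F) *ᵥ v) = v := by
    intro v
    rw [mulVec_mulVec, ← Units.val_mul, mul_inv_cancel, Units.val_one, one_mulVec]
  have hPP' : ∀ v, ((P⁻¹ : GL (Fin (k + 1)) F) : Matrix _ _ F) *ᵥ ((P : Matrix (Fin (k + 1)) (Fin (k + 1)) F) *ᵥ v) = v := by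
    intro v
    rw [mulVec_mulVec, ← Units.val_mul, inv_mul_cancel, Units.val_one, one_mulVec]
  have hXv : ∀ v, (X : Matrix (Fin (k + 1)) (Fin (k + 1)) F) *ᵥ v =
      (P : Matrix (Fin (k + 1)) (Fin (k + 1)) F) *ᵥ (blk 1 B *ᵥ (((P⁻¹ : GL (Fin (k + 1)) F) : Matrix _ _ F) *ᵥ v)) := by
    intro v
    rw [hX, mulVec_mulVec, mulVec_mulVec, mul_assoc]
  obtain ⟨w, hw⟩ : ∃ w : Fin (k + 1) → F, w = ((P⁻¹ : GL (Fin (k + 1)) F) : Matrix (Fin (k + 1)) (Fin (k + 1)) F) *ᵥ m :=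
    ⟨_, rfl⟩
  have hmw : (P : Matrix (Fin (k + 1)) (Fin (k + 1)) F) *ᵥ w = m := by rw [hw, hPP]
  have hw1 : blk 1 B *ᵥ w = w := by
    rw [← hPP' (blk 1 B *ᵥ w), hw, ← hXv, hm]
  have hwc : w = (Fin.cons (w 0) (Fin.tail w) : Fin (k + 1) → F) := (Fin.cons_self_tail w).symm
  have hwt : Fin.tail w = 0 := by
    apply fix_eq_zero hB1
    have h1 := hw1
    rw [hwc, blk_cons, Fin.cons_inj] at h1
    simpa using h1.2
  have hw0 : w 0 ≠ 0 := by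
    intro h0
    apply hm0
    rw [← hmw, hwc, hwt, h0]
    have : (Fin.cons (0 : F) (0 : Fin k → F) : Fin (k + 1) → F) = 0 := by
      ext i
      refine Fin.cases ?_ (fun i => ?_) i <;> simp
    rw [this, mulVec_zero]
  obtain ⟨a', ha'⟩ : ∃ a' : Fin (k + 1) → F, a' = ((P⁻¹ : GL (Fin (k + 1)) F) : Matrix (Fin (k + 1)) (Fin (k + 1)) F) *ᵥ a :=
    ⟨_, rfl⟩
  have haa : (P : Matrix (Fin (k + 1)) (Fin (k + 1)) F) *ᵥ a' = a := by rw [ha', hPP]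
  obtain ⟨s, hs⟩ := exists_sub_one hB1 (Fin.tail a')
  obtain ⟨t, ht⟩ : ∃ t : Fin (k + 1) → F, t = Fin.cons 0 s := ⟨_, rfl⟩
  refine ⟨a' 0 * (w 0)⁻¹, (P : Matrix (Fin (k + 1)) (Fin (k + 1)) F) *ᵥ t, ?_⟩
  have h1 : a' = (a' 0 * (w 0)⁻¹) • w + (blk 1 B *ᵥ t - t) := by
    rw [ht, blk_cons]
    ext i
    refine Fin.cases ?_ (fun i => ?_) i
    · simp [hw0]
    · have h2 : w i.succ = 0 := congrFun hwt i
      have h3 : a' i.succ = (B *ᵥ s) i - s i := congrFun hs i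
      simp [h2, h3]
  conv_lhs => rw [← haa, h1]
  rw [mulVec_add, mulVec_smul, hmw, mulVec_sub, hXv, hPP']

end Cfsg.Agent.H370.TW
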